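/-
The normaliser of a field of composite degree is not maximal: it lies properly in the normaliser of an intermediate
field of prime degree, which is a proper subgroup.
-/
import Mathlib
import Cfsg.Agent.Lib.Classical.Geo.Basic

set_option autoImplicit false
set_option linter.unusedSectionVars false

namespace Cfsg.Agent.Lib.Classical.Sub.CompField

open scoped Matrix MatrixGroups
open Module Cfsg Cfsg.Geo

variable {ι : Type} [Fintype ι] [DecidableEq ι] {F : Type*} [Field F]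

local notation "Mt" => Matrix ι ι F

theorem isField_of [Nonempty ι] {K : Subalgebra F Mt} {r : ℕ} (hK : IsFieldSubalgebra r K) : IsField ↥K :=
  { exists_pair_ne := ⟨0, 1, fun h => one_ne_zero (α := Mt) (congrArg Subtype.val h).symm⟩
    mul_comm := fun x y => Subtype.ext (hK.comm x.1 x.2 y.1 y.2)
    mul_inv_cancel := fun {a} ha => by
      obtain ⟨y, hy, hxy⟩ := hK.inv a.1 a.2 (fun h => ha (Subtype.ext h))
      exact ⟨⟨y, hy⟩, Subtype.ext hxy⟩ }

theorem det_one_add_nil {R : Mt} (hR : IsNilpotent R) : (1 + R).det = 1 := by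
  have h1 : IsNilpotent (-R) := hR.neg
  have h2 : (-R).charpoly = Polynomial.X ^ Fintype.card ι := by
    rw [← sub_eq_zero]
    exact IsNilpotent.eq_zero (Matrix.isNilpotent_charpoly_sub_pow_of_isNilpotent h1)
  have h3 := Matrix.eval_charpoly (-R) 1
  rw [h2] at h3
  have h4 : Matrix.scalar ι (1 : F) - -R = 1 + R := by
    rw [sub_neg_eq_add]
    congr 1
  rw [h4] at h3
  rw [← h3]
  simp

theorem mat_ext {A B : Mt} (h : ∀ x : ι → F, A *ᵥ x = B *ᵥ x) : A = B :=
  Matrix.ext_of_mulVec_single (fun _ => h _)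

/-- An element centralising a subalgebra normalises it. -/
theorem mem_normalizer_of_comm {K : Subalgebra F Mt} {t : GL ι F} (h : ∀ κ ∈ K, (t : Mt) * κ = κ * t) :
    t ∈ subalgebraNormalizer K := by
  have h1 : ∀ k : Mt, (t : Mt) * k = k * t → (t : Mt) * k * ((t⁻¹ : GL ι F) : Mt) = k := by
    intro k hk
    rw [hk, mul_assoc, ← Units.val_mul, mul_inv_cancel, Units.val_one, mul_one]
  intro k
  constructor
  · intro hk
    rw [h1 k (h k hk)]
    exact hk
  · intro hk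
    have h2 := h _ hk
    have h3 : ((t⁻¹ : GL ι F) : Mt) * ((t : Mt) * k * ((t⁻¹ : GL ι F) : Mt)) * (t : Mt) = k := by
      simp only [mul_assoc, ← Units.val_mul, inv_mul_cancel, Units.val_one, mul_one]
      rw [← mul_assoc, ← Units.val_mul, inv_mul_cancel, Units.val_one, one_mul]
    have h4 : (t : Mt) * k * ((t⁻¹ : GL ι F) : Mt) = k := by
      have h5 : ((t⁻¹ : GL ι F) : Mt) * ((t : Mt) * k * ((t⁻¹ : GL ι F) : Mt)) * (t : Mt) =
          (t : Mt) * k * ((t⁻¹ : GL ι F) : Mt) := by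
        rw [mul_assoc, ← h2, ← mul_assoc, ← Units.val_mul, inv_mul_cancel, Units.val_one, one_mul]
      rw [← h5, h3]
    rwa [h4] at hk

/-- The transvection over the smaller field, not normalising the bigger one. -/
theorem exists_transv [Nonempty ι] [Fintype F] {K₁ K₂ : Subalgebra F Mt} {r₁ r₂ : ℕ} (h₁ : IsFieldSubalgebra r₁ K₁)
    (h₂ : IsFieldSubalgebra r₂ K₂) (hle : K₁ ≤ K₂) (hr : r₂ < Fintype.card ι) {x : Mt} (hx : x ∈ K₂) (hx1 : x ∉ K₁) :
    ∃ t : GL ι F, t ∈ specialLinear ι F ∧ (∀ κ ∈ K₁, (t : Mt) * κ = κ * t) ∧ t ∉ subalgebraNormalizer K₂ := by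
  classical
  letI instF : Field ↥K₁ := (isField_of h₁).toField
  let ρ : ↥K₁ →+* Module.End F (ι → F) :=
    (Matrix.toLinAlgEquiv' (R := F) (n := ι)).toRingEquiv.toRingHom.comp K₁.val.toRingHom
  letI instM : Module ↥K₁ (ι → F) := Module.compHom (ι → F) ρ
  have hsmul : ∀ (c : ↥K₁) (w : ι → F), c • w = (c : Mt) *ᵥ w := fun c w => rfl
  obtain ⟨i₀⟩ := ‹Nonempty ι›
  set v : ι → F := Pi.single i₀ 1 with hv
  have hv0 : v ≠ 0 := by
    intro h
    have := congrFun h i₀
    simp [hv] at this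
  have hinj : ∀ c ∈ K₂, c *ᵥ v = 0 → c = 0 := by
    intro c hc h
    by_contra hc0
    obtain ⟨z, hz, hcz⟩ := h₂.inv c hc hc0
    apply hv0
    have h3 : (z * c) *ᵥ v = v := by
      rw [h₂.comm z hz c hc, hcz, Matrix.one_mulVec]
    rw [← h3, ← Matrix.mulVec_mulVec, h, Matrix.mulVec_zero]
  -- the line over the big field
  let S : Submodule ↥K₁ (ι → F) :=
    { carrier := {w | ∃ c ∈ K₂, w = c *ᵥ v}
      add_mem' := by
        rintro _ _ ⟨c, hc, rfl⟩ ⟨e, he, rfl⟩
        exact ⟨c + e, K₂.add_mem hc he, by rw [Matrix.add_mulVec]⟩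
      zero_mem' := ⟨0, K₂.zero_mem, by rw [Matrix.zero_mulVec]⟩
      smul_mem' := by
        rintro κ _ ⟨c, hc, rfl⟩
        exact ⟨(κ : Mt) * c, K₂.mul_mem (hle κ.2) hc, Matrix.mulVec_mulVec _ _ _⟩ }
  have hS : ∀ w, w ∈ S ↔ ∃ c ∈ K₂, w = c *ᵥ v := fun w => Iff.rfl
  obtain ⟨w₀, hw₀⟩ : ∃ w₀, w₀ ∉ S := by
    by_contra hcon
    push Not at hcon
    let ev : ↥K₂ →ₗ[F] (ι → F) :=
      { toFun := fun c => (c : Mt) *ᵥ v
        map_add' := fun a b => by simp [Matrix.add_mulVec]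
        map_smul' := fun a b => by simp [Matrix.smul_mulVec] }
    have htop : LinearMap.range ev = ⊤ := by
      rw [eq_top_iff]
      intro w _
      obtain ⟨c, hc, e⟩ := (hS w).1 (hcon w)
      exact ⟨⟨c, hc⟩, e.symm⟩
    have h1 := LinearMap.finrank_range_le ev
    rw [htop, finrank_top, Module.finrank_fintype_fun_eq_card, h₂.finrank_eq] at h1
    omega
  obtain ⟨f, hf1, hf2⟩ := Submodule.exists_le_ker_of_notMem hw₀
  set φ : (ι → F) →ₗ[↥K₁] ↥K₁ := (f w₀)⁻¹ • f with hφ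
  have hφ1 : φ w₀ = 1 := by
    rw [hφ, LinearMap.smul_apply, smul_eq_mul, inv_mul_cancel₀ hf1]
  have hφS : ∀ s ∈ S, φ s = 0 := by
    intro s hs
    have h3 : f s = 0 := LinearMap.mem_ker.1 (hf2 hs)
    rw [hφ, LinearMap.smul_apply, h3, smul_zero]
  have hvS : v ∈ S := ⟨1, K₂.one_mem, by rw [Matrix.one_mulVec]⟩
  have hcS : ∀ c ∈ K₂, c *ᵥ v ∈ S := fun c hc => ⟨c, hc, rfl⟩
  have hscal : ∀ (c : F) (w : ι → F), c • w = (algebraMap F ↥K₁ c) • w := by
    intro c w
    rw [hsmul]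
    have : ((algebraMap F ↥K₁ c : ↥K₁) : Mt) = c • (1 : Mt) := by
      rw [Subalgebra.coe_algebraMap, Algebra.algebraMap_eq_smul_one]
    rw [this, Matrix.smul_mulVec, Matrix.one_mulVec]
  let a : (ι → F) →ₗ[F] (ι → F) :=
    { toFun := fun w => ((φ w : ↥K₁) : Mt) *ᵥ v
      map_add' := fun w w' => by
        rw [map_add]
        have : ((φ w + φ w' : ↥K₁) : Mt) = (φ w : Mt) + (φ w' : Mt) := rfl
        rw [this, Matrix.add_mulVec]
      map_smul' := fun c w => by
        rw [hscal c w, map_smul, smul_eq_mul, RingHom.id_apply]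
        have : ((algebraMap F ↥K₁ c * φ w : ↥K₁) : Mt) = c • (φ w : Mt) := by
          have h3 : ((algebraMap F ↥K₁ c * φ w : ↥K₁) : Mt) = ((algebraMap F ↥K₁ c : ↥K₁) : Mt) * (φ w : Mt) := rfl
          rw [h3, Subalgebra.coe_algebraMap, Algebra.algebraMap_eq_smul_one, Matrix.smul_mul, one_mul]
        rw [this, Matrix.smul_mulVec] }
  have ha : ∀ w, a w = ((φ w : ↥K₁) : Mt) *ᵥ v := fun w => rfl
  have haa : ∀ w, a (a w) = 0 := by
    intro w
    have h3 : a w = (φ w) • v := rfl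
    rw [ha (a w), h3, map_smul, hφS v hvS, smul_zero]
    exact Matrix.zero_mulVec _
  set A : Mt := LinearMap.toMatrix' a with hA
  have hAv : ∀ w, A *ᵥ w = a w := fun w => LinearMap.toMatrix'_mulVec a w
  have hAA : A * A = 0 := by
    apply mat_ext
    intro w
    rw [← Matrix.mulVec_mulVec, hAv, hAv, haa, Matrix.zero_mulVec]
  have hT1 : (1 + A) * (1 - A) = 1 := by
    rw [add_mul, mul_sub, mul_sub, hAA]
    simp
  have hT2 : (1 - A) * (1 + A) = 1 := by
    rw [sub_mul, mul_add, mul_add, hAA]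
    simp
  let t : GL ι F := ⟨1 + A, 1 - A, hT1, hT2⟩
  have ht : (t : Mt) = 1 + A := rfl
  have ht' : ((t⁻¹ : GL ι F) : Mt) = 1 - A := rfl
  refine ⟨t, ?_, ?_, ?_⟩
  · rw [specialLinear, MonoidHom.mem_ker]
    apply Units.ext
    rw [Matrix.GeneralLinearGroup.val_det_apply, ht, Units.val_one]
    exact det_one_add_nil ⟨2, by rw [pow_two, hAA]⟩
  · intro κ hκ
    have hcomm : A * κ = κ * A := by
      apply mat_ext
      intro w
      rw [← Matrix.mulVec_mulVec, ← Matrix.mulVec_mulVec, hAv, hAv, ha, ha]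
      have h3 : (κ *ᵥ w) = (⟨κ, hκ⟩ : ↥K₁) • w := rfl
      rw [h3, map_smul, smul_eq_mul]
      have h4 : (((⟨κ, hκ⟩ : ↥K₁) * φ w : ↥K₁) : Mt) = κ * (φ w : Mt) := rfl
      rw [h4, ← Matrix.mulVec_mulVec]
    rw [ht, add_mul, mul_add, mul_one, one_mul, hcomm]
  · intro hN
    have hy := (hN x).1 hx
    rw [ht, ht'] at hy
    set y : Mt := (1 + A) * x * (1 - A) with hyd
    have hAvv : A *ᵥ v = 0 := by
      rw [hAv, ha, hφS v hvS]
      exact Matrix.zero_mulVec _
    have hyv : y *ᵥ v = x *ᵥ v := by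
      rw [hyd, ← Matrix.mulVec_mulVec, Matrix.sub_mulVec, Matrix.one_mulVec, hAvv, sub_zero, ← Matrix.mulVec_mulVec,
        Matrix.add_mulVec, Matrix.one_mulVec, hAv, ha, hφS _ (hcS x hx)]
      have : ((0 : ↥K₁) : Mt) = 0 := rfl
      rw [this, Matrix.zero_mulVec, add_zero]
    have hyx : y = x := by
      rw [← sub_eq_zero]
      apply hinj _ (K₂.sub_mem hy hx)
      rw [Matrix.sub_mulVec, hyv, sub_self]
    have hTx : (1 + A) * x = x * (1 + A) := by
      calc (1 + A) * x = ((1 + A) * x * (1 - A)) * (1 + A) := by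
            rw [mul_assoc ((1 + A) * x), hT2, mul_one]
        _ = x * (1 + A) := by rw [← hyd, hyx]
    have h5 := congrArg (fun M : Mt => M *ᵥ w₀) hTx
    simp only [← Matrix.mulVec_mulVec, Matrix.add_mulVec, Matrix.one_mulVec, hAv, Matrix.mulVec_add] at h5
    rw [ha w₀, hφ1, ha] at h5
    have h6 : ((1 : ↥K₁) : Mt) = 1 := rfl
    rw [h6, Matrix.one_mulVec] at h5
    have h7 : ((φ (x *ᵥ w₀) : ↥K₁) : Mt) *ᵥ v = x *ᵥ v := add_left_cancel h5
    have h8 : ((φ (x *ᵥ w₀) : ↥K₁) : Mt) - x = 0 := by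
      apply hinj _ (K₂.sub_mem (hle (φ (x *ᵥ w₀)).2) hx)
      rw [Matrix.sub_mulVec, h7, sub_self]
    apply hx1
    rw [← sub_eq_zero.1 h8]
    exact (φ (x *ᵥ w₀)).2

/-- The scalars. -/
theorem bot_field [Nonempty ι] : IsFieldSubalgebra 1 (⊥ : Subalgebra F Mt) where
  comm := by
    rintro _ ⟨c, rfl⟩ y -
    exact Algebra.commutes c y
  inv := by
    rintro _ ⟨c, rfl⟩ h
    have hc : c ≠ 0 := by
      rintro rfl
      exact h (map_zero _)
    refine ⟨algebraMap F Mt c⁻¹, ⟨c⁻¹, rfl⟩, ?_⟩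
    change algebraMap F Mt c * algebraMap F Mt c⁻¹ = 1
    rw [← map_mul, mul_inv_cancel₀ hc, map_one]
  finrank_eq := Subalgebra.finrank_bot

/-- The intermediate field. -/
theorem exists_mid [Nonempty ι] [Fintype F] {K : Subalgebra F Mt} {r : ℕ} (hK : IsFieldSubalgebra r K) (hr1 : 1 < r)
    (hrp : ¬ r.Prime) : ∃ (K₀ : Subalgebra F Mt) (r₀ : ℕ), IsFieldSubalgebra r₀ K₀ ∧ K₀ ≤ K ∧ r₀ ≤ r ∧
      (∃ x ∈ K, x ∉ K₀) ∧ (∃ x ∈ K₀, x ∉ (⊥ : Subalgebra F Mt)) ∧
      subalgebraNormalizer K ≤ subalgebraNormalizer K₀ := by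
  classical
  set p := r.minFac with hp
  have hpp : p.Prime := Nat.minFac_prime (by omega)
  have hpr : p ∣ r := Nat.minFac_dvd r
  have hplt : p < r := by
    have h1 := Nat.le_of_dvd (by omega) hpr
    rcases h1.lt_or_eq with h2 | h2
    · exact h2
    · exact absurd (h2 ▸ hpp) hrp
  letI instF : Field ↥K := (isField_of hK).toField
  letI instA : Algebra F ↥K := K.algebra
  haveI : Finite ↥K := inferInstance
  set Q := Fintype.card F ^ p with hQ
  set σ : ↥K →ₐ[F] ↥K := FiniteField.frobeniusAlgHom F ↥K ^ p with hσ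
  have hσa : ∀ y : ↥K, σ y = y ^ Q := by
    intro y
    rw [hσ, AlgHom.coe_pow, FiniteField.coe_frobeniusAlgHom, pow_iterate]
  let K₀ : Subalgebra F Mt := (AlgHom.equalizer σ (AlgHom.id F ↥K)).map K.val
  have hmem : ∀ k : Mt, k ∈ K₀ ↔ k ∈ K ∧ k ^ Q = k := by
    intro k
    constructor
    · rintro ⟨y, hy, rfl⟩
      refine ⟨y.2, ?_⟩
      have h1 : σ y = y := hy
      rw [hσa] at h1
      exact congrArg Subtype.val h1
    · rintro ⟨hk, h⟩
      refine ⟨⟨k, hk⟩, ?_, rfl⟩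
      change σ ⟨k, hk⟩ = ⟨k, hk⟩
      rw [hσa]
      exact Subtype.ext h
  have hle : K₀ ≤ K := fun k hk => ((hmem k).1 hk).1
  have hfield : IsFieldSubalgebra (finrank F K₀) K₀ := by
    refine ⟨fun x hx y hy => hK.comm x (hle hx) y (hle hy), fun x hx hx0 => ?_, rfl⟩
    obtain ⟨y, hy, hxy⟩ := hK.inv x (hle hx) hx0
    refine ⟨y, (hmem y).2 ⟨hy, ?_⟩, hxy⟩
    have h1 := ((hmem x).1 hx).2
    have h2 : (x * y) ^ Q = 1 := by rw [hxy, one_pow]
    rw [(show Commute x y from hK.comm x (hle hx) y hy).mul_pow, h1] at h2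
    calc y ^ Q = (y * x) * y ^ Q := by rw [hK.comm y hy x (hle hx), hxy, one_mul]
      _ = y * (x * y ^ Q) := by rw [mul_assoc]
      _ = y := by rw [h2, mul_one]
  refine ⟨K₀, finrank F K₀, hfield, hle, ?_, ?_, ?_, ?_⟩
  · rw [← hK.finrank_eq]
    exact Submodule.finrank_mono (show Subalgebra.toSubmodule K₀ ≤ Subalgebra.toSubmodule K from hle)
  · -- the field is not all of `K`
    have hne : σ ≠ 1 := by
      intro h
      have h1 := orderOf_dvd_of_pow_eq_one h
      rw [FiniteField.orderOf_frobeniusAlgHom, hK.finrank_eq] at h1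
      exact absurd (Nat.le_of_dvd hpp.pos h1) (by omega)
    obtain ⟨y, hy⟩ : ∃ y, σ y ≠ y := by
      by_contra hcon
      push Not at hcon
      exact hne (AlgHom.ext hcon)
    refine ⟨y.1, y.2, fun hm => hy ?_⟩
    rw [hσa]
    exact Subtype.ext ((hmem y.1).1 hm).2
  · -- the field is not the scalars
    set σ₀ : Gal(↥K/F) := FiniteField.frobeniusAlgEquivOfAlgebraic F ↥K with hσ₀
    set H : Subgroup Gal(↥K/F) := Subgroup.zpowers (σ₀ ^ p) with hH
    set E := IntermediateField.fixedField H with hE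
    have h1 : finrank ↥E ↥K = r / p := by
      rw [hE, IntermediateField.finrank_fixedField_eq_card, hH, Nat.card_zpowers, orderOf_pow' _ hpp.ne_zero, hσ₀,
        FiniteField.orderOf_frobeniusAlgEquivOfAlgebraic, hK.finrank_eq, Nat.gcd_eq_right hpr]
    have h2 := Module.finrank_mul_finrank F ↥E ↥K
    rw [h1, hK.finrank_eq] at h2
    have h3 : finrank F ↥E = p := by
      have h4 : 0 < r / p := Nat.div_pos (Nat.le_of_dvd (by omega) hpr) hpp.pos
      have h5 : p * (r / p) = r := Nat.mul_div_cancel' hpr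
      exact Nat.eq_of_mul_eq_mul_right h4 (by rw [h2, h5])
    obtain ⟨y, hyE, hy⟩ : ∃ y ∈ E, y ∉ (⊥ : IntermediateField F ↥K) := by
      by_contra hcon
      push Not at hcon
      have h4 : E = ⊥ := le_antisymm hcon bot_le
      rw [h4, IntermediateField.finrank_bot] at h3
      exact hpp.one_lt.ne h3
    have hfix : (σ₀ ^ p) y = y := by
      have h4 := (IntermediateField.mem_fixedField_iff H y).1 hyE (σ₀ ^ p) (Subgroup.mem_zpowers _)
      exact h4
    have h5 : y ^ Q = y := by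
      have h6 : (σ₀ ^ p) y = y ^ Q := by
        rw [AlgEquiv.coe_pow, hσ₀, FiniteField.coe_frobeniusAlgEquivOfAlgebraic_iterate]
      rw [← h6, hfix]
    refine ⟨y.1, (hmem y.1).2 ⟨y.2, congrArg Subtype.val h5⟩, ?_⟩
    rintro ⟨c, hc⟩
    apply hy
    rw [IntermediateField.mem_bot]
    exact ⟨c, Subtype.ext hc⟩
  · -- the normaliser
    intro g hg k
    set G : Mt := (g : Mt) with hG
    set G' : Mt := ((g⁻¹ : GL ι F) : Mt) with hG'
    have h1 : G' * G = 1 := by
      rw [hG, hG', ← Units.val_mul, inv_mul_cancel, Units.val_one]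
    have h2 : G * G' = 1 := by
      rw [hG, hG', ← Units.val_mul, mul_inv_cancel, Units.val_one]
    have e1 : (G * k * G') ^ Q = G * k ^ Q * G' := Units.conj_pow g k Q
    rw [hmem, hmem, e1, ← hg k]
    constructor
    · rintro ⟨h3, h4⟩
      exact ⟨h3, by rw [h4]⟩
    · rintro ⟨h3, h4⟩
      refine ⟨h3, ?_⟩
      calc k ^ Q = G' * (G * k ^ Q * G') * G := by
            simp only [mul_assoc, h2, h1, mul_one]
            rw [← mul_assoc, h1, one_mul]
        _ = k := by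
            rw [h4]
            simp only [mul_assoc, h2, h1, mul_one]
            rw [← mul_assoc, h1, one_mul]

/-- **The normaliser of a field of composite degree is not maximal.** -/
theorem not_maximal [Fintype F] {n r : ℕ} (hr1 : 1 < r) (hrp : ¬ r.Prime) (hlt : r < n)
    {K : Subalgebra F (Matrix (Fin n) (Fin n) F)} (hK : IsFieldSubalgebra r K) :
    ¬ IsCoatom (subalgebraNormalizer K) ∧
      ¬ IsMaximalIn (specialLinear (Fin n) F) (subalgebraNormalizer K ⊓ specialLinear (Fin n) F) := by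
  haveI : Nonempty (Fin n) := ⟨⟨0, by omega⟩⟩
  obtain ⟨K₀, r₀, h₀, hle, hr₀, ⟨x₁, hx₁, hx₁'⟩, ⟨x₂, hx₂, hx₂'⟩, hN⟩ := exists_mid hK hr1 hrp
  have hcard : Fintype.card (Fin n) = n := Fintype.card_fin n
  obtain ⟨t₁, ht₁S, ht₁c, ht₁N⟩ := exists_transv h₀ hK hle (by omega) hx₁ hx₁'
  obtain ⟨t₂, ht₂S, -, ht₂N⟩ := exists_transv bot_field h₀ bot_le (by omega) hx₂ hx₂'
  have ht₁ := mem_normalizer_of_comm ht₁c
  constructor
  · intro hc
    have hlt' : subalgebraNormalizer K < subalgebraNormalizer K₀ :=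
      lt_of_le_of_ne hN fun e => ht₁N (e ▸ ht₁)
    have e := hc.2 _ hlt'
    exact ht₂N (e ▸ Subgroup.mem_top t₂)
  · rintro ⟨-, hmax⟩
    rcases hmax (subalgebraNormalizer K₀ ⊓ specialLinear (Fin n) F) (inf_le_inf_right _ hN) inf_le_right with e | e
    · have h1 : t₁ ∈ subalgebraNormalizer K₀ ⊓ specialLinear (Fin n) F := ⟨ht₁, ht₁S⟩
      rw [e] at h1
      exact ht₁N h1.1
    · have h1 : t₂ ∈ specialLinear (Fin n) F := ht₂S
      rw [← e] at h1
      exact ht₂N h1.1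

end Cfsg.Agent.Lib.Classical.Sub.CompField
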